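import Cfsg.Agent.H355.PQ.Defs
import Cfsg.Agent.H990.PQ.Core

/-!
# S4612, row of `PSL_n`, [D7] the core test (helper417)

`core_el` : `u = el ζ 1` of order `p`; the elements whose images commute with `f u` commute with `u` (the kernel of `f` is scalar,
`p` does not divide `|F| - 1`), hence with `g = el c 1` (`K = F[ζ]`): `⟨f g⟩` is a central `q`-subgroup of the centralizer of `f u`.
-/

set_option autoImplicit false

open Cfsg Module

namespace Cfsg.Agent.H417.PSLD

open Cfsg.Agent.H317.PQ Cfsg.Agent.H355.PQ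

universe u v

variable {F : Type u} [Field F] {K : Type u} [Field K] [Algebra F K] {V : Type v} [AddCommGroup V] [Module F V]
  {p e w : ℕ} {ζ : Kˣ}

theorem not_dvd_sub_one (h : Dat F K p e ζ) (he : 2 ≤ e) : ¬ p ∣ Nat.card F - 1 := by
  intro h1
  have h2 := (h.min 1).1 (by rwa [pow_one])
  have h3 := Nat.le_of_dvd one_pos h2
  omega

/-- an element of `F` whose `p`-th power is `1` is `1` -/
theorem eq_one_of_pow (h : Dat F K p e ζ) (he : 2 ≤ e) {r : Fˣ} (hr : r ^ p = 1) : r = 1 := by
  have := h.finF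
  rcases (Nat.dvd_prime h.prime).1 (orderOf_dvd_of_pow_eq_one hr) with h2 | h2
  · exact orderOf_eq_one_iff.1 h2
  · exfalso
    have h3 := orderOf_dvd_natCard r
    rw [h2, Nat.card_units] at h3
    exact not_dvd_sub_one h he h3

theorem adjoin_top (h : Dat F K p e ζ) : Algebra.adjoin F {(ζ : K)} = ⊤ := by
  have hF := h.finF
  have hK := h.finK
  have hfd : FiniteDimensional F K := Module.Finite.of_finite
  set E : IntermediateField F K := IntermediateField.adjoin F {(ζ : K)} with hE
  have hζ : (ζ : K) ∈ E := IntermediateField.mem_adjoin_simple_self F _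
  have h1 : p ∣ Nat.card E - 1 := by
    let ζ' : Eˣ := Units.mk0 ⟨ζ, hζ⟩ (fun h0 => ζ.ne_zero (congrArg Subtype.val h0))
    have h2 : orderOf ζ' = p := by
      rw [← h.ord, ← orderOf_units (y := ζ), ← orderOf_units (y := ζ')]
      have h3 := orderOf_injective (E.val : E →* K) E.val.injective (ζ' : E)
      rw [← h3]
      rfl
    have h3 := orderOf_dvd_natCard ζ'
    rwa [h2, Nat.card_units] at h3
  have h2 : Nat.card E = Nat.card F ^ finrank F E := Module.natCard_eq_pow_finrank
  rw [h2] at h1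
  have h3 := (h.min _).1 h1
  have h4 : finrank F E ≤ finrank F K := Submodule.finrank_le (Subalgebra.toSubmodule E.toSubalgebra)
  have h5 : 0 < finrank F E := finrank_pos
  have h6 : finrank F E = finrank F K := by
    refine le_antisymm h4 ?_
    rw [h.deg]
    exact Nat.le_of_dvd h5 h3
  have h7 : E = ⊤ := IntermediateField.eq_of_le_of_finrank_eq le_top (by rw [IntermediateField.finrank_top', h6])
  have h8 : E.toSubalgebra = Algebra.adjoin F {(ζ : K)} :=
    IntermediateField.adjoin_simple_toSubalgebra_of_isAlgebraic (Algebra.IsAlgebraic.isAlgebraic _)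
  rw [← h8, h7]
  exact IntermediateField.top_toSubalgebra

/-! ### the elements `el c 1` -/

theorem el_mul' (a b : Kˣ) : (el (a * b) (LinearEquiv.refl F V) : Sp K w V ≃ₗ[F] Sp K w V) =
    el a (LinearEquiv.refl F V) * el b (LinearEquiv.refl F V) := by
  refine LinearEquiv.ext fun v => ?_
  rw [LinearEquiv.mul_apply, el_apply, el_apply, el_apply]
  refine Prod.ext (funext fun i => ?_) rfl
  simp [mul_assoc]

/-- `c ↦ el c 1` -/
def elHom (F : Type u) [Field F] (K : Type u) [Field K] [Algebra F K] (V : Type v) [AddCommGroup V] [Module F V]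
    (w : ℕ) : Kˣ →* (Sp K w V ≃ₗ[F] Sp K w V) :=
  MonoidHom.mk' (fun c => el c (LinearEquiv.refl F V)) fun a b => el_mul' a b

theorem elHom_apply (c : Kˣ) : elHom F K V w c = el c (LinearEquiv.refl F V) := rfl

/-- `v ↦ (a v₁, 0)` -/
def mm (a : K) (v : Sp K w V) : Sp K w V := (fun i => a * v.1 i, 0)

theorem mm_mm (a b : K) (v : Sp K w V) : mm a (mm b v) = mm (a * b) v := by
  refine Prod.ext (funext fun i => ?_) rfl
  simp [mm, mul_assoc]

theorem mm_add (a b : K) (v : Sp K w V) : mm (a + b) v = mm a v + mm b v := by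
  refine Prod.ext (funext fun i => ?_) (by simp [mm])
  simp [mm, add_mul]

theorem mm_smul (r : F) (v : Sp K w V) : mm (algebraMap F K r) v = r • mm 1 v := by
  refine Prod.ext (funext fun i => ?_) (by simp [mm])
  simp [mm, Algebra.smul_def]

theorem el_eq (c : Kˣ) (v : Sp K w V) : el c (LinearEquiv.refl F V) v = mm (c : K) v + (v - mm 1 v) := by
  rw [el_apply]
  refine Prod.ext (funext fun i => ?_) ?_
  · simp [mm]
  · simp [mm]

theorem mm_sub_one (c : Kˣ) (v : Sp K w V) : mm ((c : K) - 1) v = el c (LinearEquiv.refl F V) v - v := by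
  rw [el_apply]
  refine Prod.ext (funext fun i => ?_) ?_
  · simp [mm, sub_mul]
  · simp [mm]

/-- a map commuting with `el ζ 1` commutes with all `el c 1` -/
theorem comm_el (h : Dat F K p e ζ) (X : Sp K w V ≃ₗ[F] Sp K w V)
    (hX : ∀ v, X (el ζ (LinearEquiv.refl F V) v) = el ζ (LinearEquiv.refl F V) (X v)) (c : Kˣ) (v : Sp K w V) :
    X (el c (LinearEquiv.refl F V) v) = el c (LinearEquiv.refl F V) (X v) := by
  have hK := h.finK
  have h1 : ∀ v, X (mm ((ζ : K) - 1) v) = mm ((ζ : K) - 1) (X v) := fun v => by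
    rw [mm_sub_one (F := F), mm_sub_one (F := F), map_sub, hX]
  have h2 : ∀ (n : ℕ) (v : Sp K w V), X (mm (((ζ : K) - 1) ^ (n + 1)) v) = mm (((ζ : K) - 1) ^ (n + 1)) (X v) := by
    intro n
    induction n with
    | zero => intro v; rw [zero_add, pow_one]; exact h1 v
    | succ n ih =>
      intro v
      rw [pow_succ, ← mm_mm, ← mm_mm, ih, h1]
  have hζ : (ζ : K) - 1 ≠ 0 := by
    intro h0
    have h3 : ζ = 1 := Units.ext (sub_eq_zero.1 h0)
    have h4 := h.ord
    rw [h3, orderOf_one] at h4
    exact h.prime.one_lt.ne h4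
  have h3 : ((ζ : K) - 1) ^ (Nat.card Kˣ - 1 + 1) = 1 := by
    have h4 : 0 < Nat.card Kˣ := Nat.card_pos
    rw [Nat.sub_add_cancel h4]
    have h5 := pow_card_eq_one' (G := Kˣ) (x := Units.mk0 _ hζ)
    exact congrArg Units.val h5
  have hone : ∀ v, X (mm 1 v) = mm 1 (X v) := fun v => by
    have := h2 (Nat.card Kˣ - 1) v
    rwa [h3] at this
  let T : Subalgebra F K :=
    { carrier := {a | ∀ v, X (mm a v) = mm a (X v)}
      mul_mem' := fun {a b} ha hb v => by rw [← mm_mm, ← mm_mm, ha, hb]
      add_mem' := fun {a b} ha hb v => by rw [mm_add, mm_add, map_add, ha, hb]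
      algebraMap_mem' := fun r v => by rw [mm_smul, mm_smul, map_smul, hone] }
  have hζT : (ζ : K) ∈ T := by
    have e1 : (ζ : K) = ((ζ : K) - 1) + 1 := by ring
    rw [e1]
    exact T.add_mem h1 hone
  have hT : T = ⊤ := by
    rw [← top_le_iff, ← adjoin_top h]
    exact Algebra.adjoin_le (Set.singleton_subset_iff.2 hζT)
  have hc : ∀ v, X (mm (c : K) v) = mm (c : K) (X v) := by
    have : (c : K) ∈ T := by rw [hT]; exact Algebra.mem_top
    exact this
  rw [el_eq, el_eq, map_add, map_sub, hc, hone]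

/-! ### the test -/

/-- **[D7]** -/
theorem core_el {q : ℕ} [FiniteDimensional F V] (h : Dat F K p e ζ) (he : 2 ≤ e) (hq : q.Prime) (hpq : p ≠ q)
    {S : Type (max u v)} [Group S] {f : SpecialLinearGroup F (Sp K w V) →* S} (hf : Function.Surjective f)
    (hker : f.ker ≤ Subgroup.center _) (c : Kˣ) (hc : ∃ m : ℕ, orderOf c = q ^ m)
    (g : SpecialLinearGroup F (Sp K w V)) (hg : g.1 = el c (LinearEquiv.refl F V)) (hns : f g ≠ 1) :
    ¬ Same p q S := by
  intro hS
  have hF := h.finF
  have hK := h.finK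
  have hfd : FiniteDimensional F K := Module.Finite.of_finite
  have hV : Finite V := Module.finite_of_finite F
  have hW : Finite (Sp K w V) := inferInstance
  have hGL : Finite (Sp K w V ≃ₗ[F] Sp K w V) := Finite.of_injective (fun g => (g : Sp K w V → Sp K w V)) DFunLike.coe_injective
  have hSL : Finite (SpecialLinearGroup F (Sp K w V)) := inferInstance
  have hSf : Finite S := Finite.of_surjective f hf
  -- the space is not zero
  have hnt : Nontrivial (Sp K w V) := by
    by_contra hcon
    rw [not_nontrivial_iff_subsingleton] at hcon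
    apply hns
    have : g = 1 := Subtype.ext (LinearEquiv.ext fun v => Subsingleton.elim _ _)
    rw [this, map_one]
  -- the element `u`
  have hUp : (el ζ (LinearEquiv.refl F V) : Sp K w V ≃ₗ[F] Sp K w V) ^ p = 1 := by
    rw [← elHom_apply, ← map_pow, ← h.ord, pow_orderOf_eq_one, map_one]
  have hdet : LinearEquiv.det (el ζ (LinearEquiv.refl F V) : Sp K w V ≃ₗ[F] Sp K w V) = 1 := by
    apply eq_one_of_pow h he
    rw [← map_pow, hUp, map_one]
  let u : SpecialLinearGroup F (Sp K w V) := ⟨el ζ (LinearEquiv.refl F V), hdet⟩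
  have hup : u ^ p = 1 := Subtype.ext hUp
  -- elements commuting with `f u`
  have key : ∀ x : SpecialLinearGroup F (Sp K w V), f x * f u = f u * f x → x * g = g * x := by
    intro x hx
    set z := x * u * x⁻¹ * u⁻¹ with hz
    have hzk : z ∈ f.ker := by
      rw [MonoidHom.mem_ker, hz, map_mul, map_mul, map_mul, hx, map_inv, map_inv]
      group
    have hzc := hker hzk
    have hzu : z * u = x * u * x⁻¹ := by rw [hz]; group
    have hzp : z ^ p = 1 := by
      have h0 : Commute z u := (Subgroup.mem_center_iff.1 hzc u).symm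
      have h1 : (z * u) ^ p = z ^ p * u ^ p := h0.mul_pow p
      rw [hzu, conj_pow, hup, mul_one, mul_one, mul_inv_cancel] at h1
      exact h1.symm
    obtain ⟨r, -, hr⟩ := SpecialLinearGroup.mem_center_iff.1 hzc
    have hra : ∀ v : Sp K w V, z.1 v = r • v := fun v => by
      have := LinearMap.congr_fun hr v
      simpa using this
    have hrp : r ^ p = 1 := by
      obtain ⟨v, hv⟩ := exists_ne (0 : Sp K w V)
      have h1 : ∀ n : ℕ, (z ^ n).1 v = r ^ n • v := by
        intro n
        induction n with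
        | zero => simp
        | succ n ih =>
          rw [pow_succ', SpecialLinearGroup.coe_mul, LinearEquiv.mul_apply, ih, hra, smul_smul, ← pow_succ']
      have h2 := h1 p
      rw [hzp] at h2
      have h3 : (r ^ p - 1) • v = 0 := by
        rw [sub_smul, one_smul, ← h2]
        exact sub_self _
      rcases smul_eq_zero.1 h3 with h4 | h4
      · exact sub_eq_zero.1 h4
      · exact absurd h4 hv
    have hr0 : r ≠ 0 := by
      intro h0
      rw [h0, zero_pow h.prime.ne_zero] at hrp
      exact zero_ne_one hrp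
    have hr1 : r = 1 := by
      have h1 := eq_one_of_pow h he (r := Units.mk0 r hr0) (Units.ext hrp)
      exact congrArg Units.val h1
    have hz1 : z = 1 := by
      apply Subtype.ext
      refine LinearEquiv.ext fun v => ?_
      rw [hra, hr1, one_smul]
      rfl
    have hxu : x * u = u * x := by
      rw [hz1, one_mul] at hzu
      rw [eq_mul_inv_iff_mul_eq] at hzu
      exact hzu.symm
    have hxu' : ∀ v, x.1 (el ζ (LinearEquiv.refl F V) v) = el ζ (LinearEquiv.refl F V) (x.1 v) := fun v => by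
      have h1 := congrArg (fun y : SpecialLinearGroup F (Sp K w V) => y.1 v) hxu
      exact h1
    apply Subtype.ext
    refine LinearEquiv.ext fun v => ?_
    show x.1 (g.1 v) = g.1 (x.1 v)
    rw [hg]
    exact comm_el h x.1 hxu' c v
  -- the order of `f g`
  obtain ⟨m, hm⟩ := hc
  have hgq : g ^ q ^ m = 1 := by
    apply Subtype.ext
    show g.1 ^ q ^ m = 1
    rw [hg, ← elHom_apply, ← map_pow, ← hm, pow_orderOf_eq_one, map_one]
  have hfq : orderOf (f g) ∣ q ^ m := by
    apply orderOf_dvd_of_pow_eq_one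
    rw [← map_pow, hgq, map_one]
  obtain ⟨j, -, hj⟩ := (Nat.dvd_prime_pow hq).1 hfq
  have hj0 : j ≠ 0 := by
    rintro rfl
    rw [pow_zero] at hj
    exact hns (orderOf_eq_one_iff.1 hj)
  -- `f u` is a `p`-element
  have hfu : ∃ k : ℕ, orderOf (f u) = p ^ k := by
    have h1 : orderOf (f u) ∣ p ^ 1 := by
      apply orderOf_dvd_of_pow_eq_one
      rw [pow_one, ← map_pow, hup, map_one]
    obtain ⟨k, -, hk⟩ := (Nat.dvd_prime_pow h.prime).1 h1
    exact ⟨k, hk⟩
  have hgC : f g ∈ Subgroup.centralizer ({f u} : Set S) := by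
    rw [Subgroup.mem_centralizer_singleton_iff, ← map_mul, ← map_mul]
    congr 1
    have h1 : u * g = g * u := key u rfl
    exact h1.symm
  let N : Subgroup ↥(Subgroup.centralizer ({f u} : Set S)) := Subgroup.zpowers ⟨f g, hgC⟩
  have hcen : ∀ s : ↥(Subgroup.centralizer ({f u} : Set S)), s * ⟨f g, hgC⟩ = ⟨f g, hgC⟩ * s := by
    rintro ⟨s, hs⟩
    apply Subtype.ext
    show s * f g = f g * s
    obtain ⟨x, rfl⟩ := hf s
    rw [Subgroup.mem_centralizer_singleton_iff] at hs
    rw [← map_mul, ← map_mul, key x hs]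
  have hN : N.Normal := by
    refine ⟨fun n hn s => ?_⟩
    obtain ⟨i, rfl⟩ := hn
    have h1 : s * ((⟨f g, hgC⟩ : ↥(Subgroup.centralizer ({f u} : Set S))) ^ i) * s⁻¹ = (⟨f g, hgC⟩) ^ i := by
      have h2 : Commute s ((⟨f g, hgC⟩ : ↥(Subgroup.centralizer ({f u} : Set S))) ^ i) := (show Commute s _ from hcen s).zpow_right i
      rw [h2.eq, mul_inv_cancel_right]
    show s * ((⟨f g, hgC⟩ : ↥(Subgroup.centralizer ({f u} : Set S))) ^ i) * s⁻¹ ∈ N
    rw [h1]
    exact Subgroup.zpow_mem _ (Subgroup.mem_zpowers _) i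
  have hNc : Nat.card N = q ^ j := by
    rw [Nat.card_zpowers, Subgroup.orderOf_mk, hj]
  have h1 : ¬ p ∣ Nat.card N := by
    rw [hNc]
    intro h2
    exact hpq ((Nat.prime_dvd_prime_iff_eq h.prime hq).1 (h.prime.dvd_of_dvd_pow h2))
  have h2 := Cfsg.Agent.H990.PQ.Same.core_elem h.prime hq hpq hS hfu N h1
  apply h2
  rw [hNc]
  exact dvd_pow_self q hj0

end Cfsg.Agent.H417.PSLD
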